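import Mathlib

/-!
# S4761, task BIN (helper273 for helper596)
-/

set_option autoImplicit false
set_option linter.unusedVariables false

namespace Cfsg.Agent.H273.S61

open Polynomial Module

theorem core {V : Type*} {q r : ℕ} [Fact q.Prime] (hr : r.Prime) [AddCommGroup V] [Module (ZMod q) V] [Finite V]
    [Nontrivial V] (T : Module.End (ZMod q) V) (hTr : T ^ r = 1) (hfix : ∀ v, T v = v → v = 0)
    (hconj : ∀ j : ℕ, 0 < j → j < r → ∃ B B' : Module.End (ZMod q) V, B * B' = 1 ∧ B' * B = 1 ∧ T ^ j = B * T * B') :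
    r - 1 ≤ finrank (ZMod q) V := by
  classical
  have hmf : Module.Finite (ZMod q) V := Module.Finite.of_finite
  set f := minpoly (ZMod q) T with hf
  have hint : IsIntegral (ZMod q) T := Algebra.IsIntegral.isIntegral T
  have hf0 : f ≠ 0 := minpoly.ne_zero hint
  have hdeg : f.natDegree ≤ finrank (ZMod q) V := by
    rw [← LinearMap.charpoly_natDegree T]
    exact natDegree_le_of_dvd (LinearMap.minpoly_dvd_charpoly T) (LinearMap.charpoly_monic T).ne_zero
  -- `f` divides `X ^ r - 1`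
  have hdvd : f ∣ X ^ r - 1 := by
    apply minpoly.dvd
    rw [map_sub, map_pow, aeval_X, map_one, hTr, sub_self]
  -- `1` is not a root
  have h1 : ¬ f.IsRoot 1 := by
    intro h1
    obtain ⟨v, hv⟩ := (Module.End.hasEigenvalue_iff_isRoot.2 h1).exists_hasEigenvector
    have h2 := hv.apply_eq_smul
    rw [one_smul] at h2
    exact hv.2 (hfix v h2)
  -- `f` divides `f (X ^ j)`
  have hj : ∀ j, 0 < j → j < r → f ∣ f.comp (X ^ j) := by
    intro j hj0 hjr
    obtain ⟨B, B', h3', h3, h2⟩ := hconj j hj0 hjr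
    apply minpoly.dvd
    rw [aeval_comp, map_pow, aeval_X]
    have h4 : ∀ g : (ZMod q)[X], aeval (T ^ j) g = B * aeval T g * B' := by
      intro g
      induction g using Polynomial.induction_on' with
      | add g h hg hh => rw [map_add, map_add, hg, hh, mul_add, add_mul]
      | monomial k a =>
        rw [aeval_monomial, aeval_monomial]
        have h5 : ∀ k : ℕ, (T ^ j) ^ k = B * T ^ k * B' := by
          intro k
          induction k with
          | zero => rw [pow_zero, pow_zero, mul_one, h3']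
          | succ k ih =>
            rw [pow_succ, ih, h2, pow_succ]
            calc B * T ^ k * B' * (B * T * B') = B * T ^ k * (B' * B) * T * B' := by simp only [mul_assoc]
              _ = B * (T ^ k * T) * B' := by rw [h3, mul_one, mul_assoc B]
        rw [h5, Algebra.algebraMap_eq_smul_one, smul_one_mul, smul_one_mul, mul_smul_comm, smul_mul_assoc]
    rw [h4, minpoly.aeval, mul_zero, zero_mul]
  -- a root in the algebraic closure
  let L := AlgebraicClosure (ZMod q)
  obtain ⟨ζ, hζ⟩ := IsAlgClosed.exists_aeval_eq_zero L f (minpoly.degree_pos hint).ne'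
  have hζr : ζ ^ r = 1 := by
    obtain ⟨g, hg⟩ := hdvd
    have h2 : aeval ζ (X ^ r - 1 : (ZMod q)[X]) = 0 := by rw [hg, map_mul, hζ, zero_mul]
    rw [map_sub, map_pow, aeval_X, map_one] at h2
    exact sub_eq_zero.1 h2
  have hζ1 : ζ ≠ 1 := by
    intro h2
    apply h1
    rw [h2] at hζ
    have h3 : algebraMap (ZMod q) L (f.eval 1) = 0 := by
      rw [← hζ, aeval_def, eval₂_at_one]
    exact (map_eq_zero (algebraMap (ZMod q) L)).1 h3
  have hord : orderOf ζ = r := by
    have : Fact r.Prime := ⟨hr⟩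
    exact orderOf_eq_prime hζr hζ1
  have hinj : Set.InjOn (fun j => ζ ^ j) (Finset.Ioo 0 r : Set ℕ) := by
    have h2 := pow_injOn_Iio_orderOf (x := ζ)
    rw [hord] at h2
    refine h2.mono fun i hi => ?_
    simp only [Finset.coe_Ioo, Set.mem_Ioo] at hi
    exact hi.2
  have hsub : (Finset.Ioo 0 r).image (fun j => ζ ^ j) ⊆ (f.aroots L).toFinset := by
    intro y hy
    obtain ⟨j, hj', rfl⟩ := Finset.mem_image.1 hy
    rw [Finset.mem_Ioo] at hj'
    rw [Multiset.mem_toFinset, mem_aroots]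
    refine ⟨hf0, ?_⟩
    obtain ⟨g, hg⟩ := hj j hj'.1 hj'.2
    have h2 : aeval ζ (f.comp (X ^ j)) = 0 := by rw [hg, map_mul, hζ, zero_mul]
    rw [aeval_comp, map_pow, aeval_X] at h2
    exact h2
  have hc := Finset.card_le_card hsub
  rw [Finset.card_image_of_injOn hinj, Nat.card_Ioo] at hc
  have h5 := (Multiset.toFinset_card_le _).trans ((card_roots' (f.map (algebraMap (ZMod q) L))).trans natDegree_map_le)
  have h6 : (f.aroots L).toFinset.card ≤ f.natDegree := h5
  omega

theorem core' {V : Type*} {q r n : ℕ} [Fact q.Prime] (hr : r.Prime) [AddCommGroup V] [Module (ZMod q) V] [Finite V]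
    (hcard : Nat.card V = q ^ n) (hn : n ≠ 0) (T : V ≃+ V) (hTr : ∀ v, T^[r] v = v) (hfix : ∀ v, T v = v → v = 0)
    (hconj : ∀ j : ℕ, 0 < j → j < r → ∃ B : V ≃+ V, ∀ v, B (T (B.symm v)) = T^[j] v) : r - 1 ≤ n := by
  have hq : q.Prime := Fact.out
  have hmf : Module.Finite (ZMod q) V := Module.Finite.of_finite
  have hrank : finrank (ZMod q) V = n := by
    have h1 := Module.natCard_eq_pow_finrank (K := ZMod q) (V := V)
    rw [Nat.card_zmod, hcard] at h1
    exact (Nat.pow_right_injective hq.two_le h1).symm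
  have hnt : Nontrivial V := by
    rw [← Finite.one_lt_card_iff_nontrivial, hcard]
    exact Nat.one_lt_pow hn hq.one_lt
  rw [← hrank]
  have hit : ∀ (k : ℕ) (v : V), (T.toAddMonoidHom.toZModLinearMap q)^[k] v = T^[k] v := fun k v => rfl
  refine core hr (T.toAddMonoidHom.toZModLinearMap q) ?_ hfix ?_
  · ext v
    rw [Module.End.pow_apply, hit, hTr]
    rfl
  · intro j hj0 hjr
    obtain ⟨β, hβ⟩ := hconj j hj0 hjr
    refine ⟨β.toAddMonoidHom.toZModLinearMap q, β.symm.toAddMonoidHom.toZModLinearMap q, ?_, ?_, ?_⟩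
    · ext v
      exact β.apply_symm_apply v
    · ext v
      exact β.symm_apply_apply v
    · ext v
      rw [Module.End.pow_apply, hit, ← hβ]
      rfl

theorem le_of_conj {A : Type*} [CommGroup A] [Finite A] {q r n : ℕ} (hq : q.Prime) (hr : r.Prime) (hqr : q ≠ r)
    (hA : ∀ a : A, a ^ q = 1) (hcard : Nat.card A = q ^ n) (hn : n ≠ 0) (α : MulAut A) (hα : α ^ r = 1)
    (hfix : ∀ a, α a = a → a = 1) (hconj : ∀ j : ℕ, 0 < j → j < r → ∃ β : MulAut A, β * α * β⁻¹ = α ^ j) :
    r - 1 ≤ n := by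
  have : Fact q.Prime := ⟨hq⟩
  have hfin : Finite (Additive A) := inferInstanceAs (Finite A)
  have hpow : ∀ (k : ℕ) (a : A), (α ^ k) a = α^[k] a := by
    intro k
    induction k with
    | zero => intro a; rfl
    | succ k ih => intro a; rw [pow_succ', Function.iterate_succ_apply', MulAut.mul_apply, ih]
  have hit : ∀ (k : ℕ) (v : Additive A), (MulEquiv.toAdditive α)^[k] v = Additive.ofMul (α^[k] v.toMul) := by
    intro k
    induction k with
    | zero => intro a; rfl
    | succ k ih => intro a; rw [Function.iterate_succ_apply', Function.iterate_succ_apply', ih]; rfl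
  refine @core' (Additive A) q r n _ hr _ (AddCommGroup.zmodModule (fun x => congrArg Additive.ofMul (hA x.toMul))) _
    hcard hn (MulEquiv.toAdditive α) ?_ ?_ ?_
  · intro v
    rw [hit, ← hpow, hα]
    rfl
  · intro v hv
    exact congrArg Additive.ofMul (hfix v.toMul (congrArg Additive.toMul hv))
  · intro j hj0 hjr
    obtain ⟨β, hβ⟩ := hconj j hj0 hjr
    refine ⟨MulEquiv.toAdditive β, fun v => ?_⟩
    rw [hit, ← hpow, ← hβ]
    rfl

theorem sum_mul (x k : ℕ) (hx : 1 ≤ x) : (∑ i ∈ Finset.range k, x ^ i) * (x - 1) + 1 = x ^ k := by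
  have h := geom_sum_mul_add (x - 1) k
  rwa [Nat.sub_add_cancel hx] at h

/-- a sum of an odd number of odd numbers is odd -/
theorem odd_sum {x k : ℕ} (hx : Odd x) : Odd (∑ i ∈ Finset.range k, x ^ i) ↔ Odd k := by
  induction k with
  | zero => simp
  | succ k ih =>
    rw [Finset.sum_range_succ, Nat.odd_add, ih, Nat.odd_add]
    have h1 : ¬ Even (x ^ k) := Nat.not_even_iff_odd.2 hx.pow
    simp [h1]

theorem sum_two_mul (x j : ℕ) :
    ∑ i ∈ Finset.range (2 * j), x ^ i = (x + 1) * ∑ i ∈ Finset.range j, (x ^ 2) ^ i := by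
  induction j with
  | zero => simp
  | succ j ih =>
    rw [mul_add, mul_one, Finset.sum_range_succ, Finset.sum_range_succ, ih, Finset.sum_range_succ, mul_add]
    ring

/-- from `q ^ n - 1 = a (q ^ c - 1)`, `a > 0`: `c ∣ n` and `a = 1 + x + ... + x ^ (k - 1)`, `x = q ^ c`, `k = n / c`. -/
theorem exists_sum {q n c a : ℕ} (hq : 2 ≤ q) (hn : 0 < n) (h : q ^ n - 1 = a * (q ^ c - 1)) :
    0 < c ∧ ∃ k : ℕ, 0 < k ∧ n = c * k ∧ a = ∑ i ∈ Finset.range k, (q ^ c) ^ i := by
  have hn1 : 1 < q ^ n := Nat.one_lt_pow hn.ne' hq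
  have hc : 0 < c := by
    rcases Nat.eq_zero_or_pos c with h0 | h0
    · rw [h0, pow_zero, Nat.sub_self, mul_zero] at h
      omega
    · exact h0
  have hc1 : 1 < q ^ c := Nat.one_lt_pow hc.ne' hq
  have hd : c ∣ n := by
    have h1 := Nat.pow_sub_one_gcd_pow_sub_one q c n
    rw [Nat.gcd_eq_left (h ▸ Dvd.intro_left a rfl)] at h1
    have h2 : 1 ≤ q ^ c.gcd n := Nat.one_le_pow _ _ (by omega)
    have h3 : q ^ c = q ^ c.gcd n := by omega
    have h4 := Nat.pow_right_injective hq h3
    rw [h4]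
    exact Nat.gcd_dvd_right c n
  obtain ⟨k, hk⟩ := hd
  refine ⟨hc, k, ?_, hk, ?_⟩
  · rcases Nat.eq_zero_or_pos k with h0 | h0
    · rw [h0, mul_zero] at hk
      omega
    · exact h0
  · have h1 := sum_mul (q ^ c) k hc1.le
    rw [← pow_mul, ← hk] at h1
    have h2 : a * (q ^ c - 1) = (∑ i ∈ Finset.range k, (q ^ c) ^ i) * (q ^ c - 1) := by omega
    exact Nat.eq_of_mul_eq_mul_right (by omega) h2

theorem arith_two {p q n c m : ℕ} (hp : p.Prime) (hq : q.Prime) (hpq : p ≠ q) (hq2 : q ≠ 2) (hn : 0 < n) (hm : 0 < m)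
    (h : q ^ n - 1 = 2 ^ m * (q ^ c - 1)) (hmod : p ∣ 2 ^ m - 1) : False := by
  obtain ⟨hc, k, hk0, hk, hs⟩ := exists_sum hq.two_le hn h
  have hqo : Odd q := hq.odd_of_ne_two hq2
  set x := q ^ c with hx
  have hxo : Odd x := hqo.pow
  have hx3 : 3 ≤ x := by
    have h1 : 1 < x := Nat.one_lt_pow hc.ne' hq.one_lt
    obtain ⟨y, hy⟩ := hxo
    omega
  have hke : ¬ Odd k := by
    rw [← odd_sum hxo, ← hs]
    rw [Nat.not_odd_iff_even]
    exact (Nat.even_pow.2 ⟨even_two, hm.ne'⟩)
  rw [Nat.not_odd_iff_even] at hke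
  obtain ⟨j, hj⟩ := hke
  have hj2 : k = 2 * j := by omega
  rw [hj2, sum_two_mul] at hs
  have hd1 : (x + 1) ∣ 2 ^ m := Dvd.intro _ hs.symm
  have hd2 : (∑ i ∈ Finset.range j, (x ^ 2) ^ i) ∣ 2 ^ m := Dvd.intro_left _ hs.symm
  rcases Nat.lt_or_ge j 2 with hj1 | hj1
  · have hj3 : j = 1 := by omega
    rw [hj3, Finset.sum_range_one, pow_zero, mul_one] at hs
    rw [hs, Nat.add_sub_cancel, hx] at hmod
    exact hpq ((Nat.prime_dvd_prime_iff_eq hp hq).1 (hp.dvd_of_dvd_pow hmod))
  · have hje : ¬ Odd j := by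
      rw [← odd_sum (x := x ^ 2) hxo.pow]
      obtain ⟨t, -, ht⟩ := (Nat.dvd_prime_pow Nat.prime_two).1 hd2
      rw [ht, Nat.not_odd_iff_even, Nat.even_pow]
      refine ⟨even_two, ?_⟩
      rintro rfl
      rw [pow_zero] at ht
      have h1 : ∑ i ∈ Finset.range 2, (x ^ 2) ^ i ≤ ∑ i ∈ Finset.range j, (x ^ 2) ^ i :=
        Finset.sum_le_sum_of_subset (Finset.range_mono hj1)
      rw [Finset.sum_range_succ, Finset.sum_range_one, pow_zero, pow_one, ht] at h1
      nlinarith
    rw [Nat.not_odd_iff_even] at hje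
    obtain ⟨l, hl⟩ := hje
    have hl2 : j = 2 * l := by omega
    rw [hl2, sum_two_mul] at hd2
    have hd3 : (x ^ 2 + 1) ∣ 2 ^ m := (Dvd.intro _ rfl).trans hd2
    obtain ⟨t, -, ht⟩ := (Nat.dvd_prime_pow Nat.prime_two).1 hd3
    obtain ⟨y, hy⟩ := hxo
    have h1 : x ^ 2 + 1 = 4 * (y ^ 2 + y) + 2 := by rw [hy]; ring
    have h2 : t < 2 := by
      by_contra h2
      have h3 : 4 ∣ 2 ^ t := pow_dvd_pow 2 (not_lt.1 h2)
      omega
    have h3 : 2 ^ t ≤ 2 ^ 1 := Nat.pow_le_pow_right (by norm_num) (by omega)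
    nlinarith

theorem arith_odd {p q r n c : ℕ} (hp : p.Prime) (hq : q.Prime) (hr : r.Prime) (hr2 : r ≠ 2) (hpq : p ≠ q) (hn : 0 < n)
    (hrn : r - 1 ≤ n) (h : q ^ n - 1 = r * (q ^ c - 1)) (hmod : p ∣ r - 1) : False := by
  obtain ⟨hc, k, hk0, hk, hs⟩ := exists_sum hq.two_le hn h
  have hr3 : 3 ≤ r := by
    have := hr.two_le
    omega
  have hq2 := hq.two_le
  -- `k ≥ 2`
  have hk2 : 2 ≤ k := by
    by_contra hk1
    have h1 : k = 1 := by omega
    rw [h1, Finset.sum_range_one, pow_zero] at hs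
    omega
  -- `q ^ (n - c) ≤ r`
  have h1 : q ^ (n - c) ≤ r := by
    rw [hs, hk]
    have h2 : c * k - c = c * (k - 1) := by rw [Nat.mul_sub, mul_one]
    rw [h2, pow_mul]
    exact Finset.single_le_sum (f := fun i => (q ^ c) ^ i) (fun i _ => Nat.zero_le _)
      (Finset.mem_range.2 (by omega : k - 1 < k))
  have hn2 : 2 * c ≤ n := by rw [hk, mul_comm 2 c]; exact Nat.mul_le_mul_left c hk2
  set d := n - c with hd
  have hnd : n = c + d := by omega
  have hd2 : d ≤ 2 := by
    by_contra h3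
    have h4 : 2 ^ d ≤ q ^ d := Nat.pow_le_pow_left hq2 d
    have h5 : 2 * d + 1 < 2 ^ d := by
      have h6 : ∀ e : ℕ, 2 * (e + 3) + 1 < 2 ^ (e + 3) := by
        intro e
        induction e with
        | zero => norm_num
        | succ e ih => rw [show e + 1 + 3 = (e + 3) + 1 by ring, pow_succ]; omega
      have := h6 (d - 3)
      rwa [show d - 3 + 3 = d by omega] at this
    omega
  have hd1 : 1 ≤ d := by omega
  have hcd : c ≤ d := by omega
  have hrle : r ≤ n + 1 := by omega
  have key : q = 2 ∧ (r = 3 ∨ r = 5) := by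
    interval_cases d
    · have hc1 : c = 1 := by omega
      have hn' : n = 2 := by omega
      have hq3 : q ≤ 3 := by rw [pow_one] at h1; omega
      rw [hc1, hn', pow_one] at h
      interval_cases q
      · exact ⟨rfl, by omega⟩
      · exfalso
        norm_num at h
        have : r = 4 := by omega
        rw [this] at hr
        exact absurd hr (by decide)
    · have hq3 : q < 3 := by
        by_contra h3
        have : 3 ^ 2 ≤ q ^ 2 := Nat.pow_le_pow_left (not_lt.1 h3) 2
        omega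
      have hq' : q = 2 := by omega
      refine ⟨hq', ?_⟩
      rw [hq'] at h
      interval_cases c
      · have hn' : n = 3 := by omega
        rw [hn'] at h
        norm_num at h
        omega
      · have hn' : n = 4 := by omega
        rw [hn'] at h
        norm_num at h
        omega
  obtain ⟨hq', h3⟩ := key
  have hp2 : p = 2 := by
    rcases h3 with h3 | h3
    · rw [h3] at hmod
      exact (Nat.prime_dvd_prime_iff_eq hp Nat.prime_two).1 hmod
    · rw [h3] at hmod
      have h4 : p ∣ 2 ^ 2 := hmod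
      exact (Nat.prime_dvd_prime_iff_eq hp Nat.prime_two).1 (hp.dvd_of_dvd_pow h4)
  exact hpq (hp2.trans hq'.symm)

end Cfsg.Agent.H273.S61
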